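import Cfsg.Agent.H998.SpAlt.JTwoC
import Cfsg.Agent.J2.HundredGens
import Cfsg.Agent.S1619

/-!
# The elements of `J₂` (helper998, for S3666)
-/

set_option autoImplicit false

namespace Cfsg.Agent.H998.SpAlt

open Cfsg Subgroup
open Cfsg.Agent.J2.HundredGens Cfsg.Agent.SporadicA.J2Hundred

theorem DJ2.congr {X Y : Type*} [Group X] [Group Y] (e : X ≃* Y) (h : DJ2 X) : DJ2 Y := by
  obtain ⟨⟨x0, h0, hx0, hh0, hxh⟩, ⟨y0, a0, b0, g0, c1, c2, d1, d2, i, j, hy0, ha, hay, hb, hby, hg, hc1, hc1y, hc2,
    hc2y, hd1, hd1y, hd2, hd2y, h7, τ0, w0, t0, hτ, hτ1, hτy, hw, hw1, hwy, ht, ht1, hty, h12, h3', hτw⟩, e0, he0⟩ := h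
  have ho : ∀ x : X, orderOf (e x) = orderOf x := fun x => MulEquiv.orderOf_eq e x
  have hne : ∀ {x : X}, x ≠ 1 → e x ≠ 1 := fun hx h1 => hx ((map_eq_one_iff e e.injective).1 h1)
  refine ⟨⟨e x0, e h0, by rw [ho, hx0], by simpa using congrArg e hh0, by simpa using congrArg e hxh⟩,
    ⟨e y0, e a0, e b0, e g0, e c1, e c2, e d1, e d2, i, j, by rw [ho, hy0], by simpa using congrArg e ha,
      by simpa using congrArg e hay, by simpa using congrArg e hb, by simpa using congrArg e hby,
      by simpa using congrArg e hg, by simpa using congrArg e hc1, by simpa using congrArg e hc1y,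
      by simpa using congrArg e hc2, by simpa using congrArg e hc2y, by simpa using congrArg e hd1,
      by simpa using congrArg e hd1y, by simpa using congrArg e hd2, by simpa using congrArg e hd2y,
      by rw [← map_mul, ← map_mul, ← map_mul, ho, h7],
      e τ0, e w0, e t0, by simpa using congrArg e hτ, hne hτ1, by simpa using congrArg e hτy,
      by simpa using congrArg e hw, hne hw1, by simpa using congrArg e hwy, by simpa using congrArg e ht, hne ht1,
      by simpa using congrArg e hty, by simpa using congrArg e h12, by simpa using congrArg e h3',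
      by simpa using congrArg e hτw⟩, e e0, by rw [ho, he0]⟩

namespace JTwoDat

/-- the element of a word -/
noncomputable def el (L : List ℕ) : ↥G := ⟨pw L, pw_mem L⟩

theorem el_mul (L M : List ℕ) : el L * el M = el (L ++ M) := Subtype.ext (pw_mul L M)

theorem el_inv (L : List ℕ) : (el L)⁻¹ = el L.reverse := Subtype.ext (pw_inv L)

theorem el_one : el [] = 1 := rfl

theorem el_eq {L M : List ℕ} (h : chk L M = true) : el L = el M := Subtype.ext (pw_eq h)

theorem el_one' {L : List ℕ} (h : chk L [] = true) : el L = 1 := el_eq h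

theorem el_ne {L : List ℕ} (h : chk L [] = false) : el L ≠ 1 := by
  intro h1
  have h2 : pw L = 1 := congrArg Subtype.val h1
  have h3 : chk L [] = true := by
    unfold chk
    rw [Cfsg.Agent.SporadicA.PermTab.allB_iff]
    intro i hi
    have h4 := pw_val L ⟨i, hi⟩
    rw [h2] at h4
    have h5 : run L i = run [] i := h4.symm
    rw [h5]
    exact Nat.beq_refl _
  rw [h3] at h
  exact Bool.noConfusion h

/-- word -/
def wx : List ℕ := [4, 3, 1, 2, 3, 1, 2, 1, 0]
/-- word -/
def wh : List ℕ := [1, 0, 1, 2, 3, 2, 1, 0, 1, 3, 2, 3, 4, 3, 2]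
/-- word -/
def wy : List ℕ := [1, 0]
/-- word -/
def wa : List ℕ := [4]
/-- word -/
def wb : List ℕ := [2, 3, 1, 2, 3, 2, 1, 0, 1, 2, 3, 0, 1, 2, 1, 0, 1, 0]
/-- word -/
def wg : List ℕ := [3, 2, 3, 4, 3, 2, 3, 2, 1, 0, 1, 2, 3, 4, 1, 2, 3, 2, 0]
/-- word -/
def wc1 : List ℕ := [3]
/-- word -/
def wc2 : List ℕ := [4]
/-- word -/
def wd1 : List ℕ := [2, 3, 4, 2, 3, 1, 2, 3, 4, 2, 3, 1, 2, 3, 4, 1, 2, 0, 1, 0]
/-- word -/
def wd2 : List ℕ := [1, 2, 3, 4, 3, 2, 3, 1, 2, 3, 4, 2, 3, 1, 2, 3, 1, 2, 0, 1, 0, 1]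
/-- word -/
def wt : List ℕ := [4, 2, 3, 1, 2, 3, 2, 1, 0, 1, 2, 3, 4, 0, 1, 2, 1, 0, 1, 0]
/-- word -/
def ww : List ℕ := [3, 4]
/-- word -/
def wτ : List ℕ := [0]
/-- word -/
def we : List ℕ := [3, 2]

theorem dat : DJ2 ↥G := by
  refine ⟨⟨el wx, el wh, ?_, ?_, ?_⟩, ⟨el wy, el wa, el wb, el wg, el wc1, el wc2, el wd1, el wd2, 2, 1, ?_, ?_, ?_, ?_, ?_,
    ?_, ?_, ?_, ?_, ?_, ?_, ?_, ?_, ?_, ?_, el wτ, el ww, el wt, ?_, ?_, ?_, ?_, ?_, ?_, ?_, ?_, ?_, ?_, ?_, ?_⟩, el we, ?_⟩
  · refine orderOf_eq_prime (hp := ⟨by norm_num⟩) ?_ (el_ne (by decide +kernel))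
    simp only [pow_succ, pow_zero, one_mul, el_mul]
    exact el_one' (by decide +kernel)
  · simp only [pow_succ, pow_zero, one_mul, el_mul]
    exact el_one' (by decide +kernel)
  · simp only [pow_succ, pow_zero, one_mul, el_mul, el_inv]
    exact el_eq (by decide +kernel)
  · refine orderOf_eq_prime (hp := ⟨by norm_num⟩) ?_ (el_ne (by decide +kernel))
    simp only [pow_succ, pow_zero, one_mul, el_mul]
    exact el_one' (by decide +kernel)
  · simp only [el_mul]
    exact el_one' (by decide +kernel)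
  · simp only [el_mul]
    exact el_eq (by decide +kernel)
  · simp only [el_mul]
    exact el_one' (by decide +kernel)
  · simp only [el_mul]
    exact el_eq (by decide +kernel)
  · simp only [pow_succ, pow_zero, one_mul, el_mul, el_inv]
    exact el_eq (by decide +kernel)
  · simp only [el_mul]
    exact el_one' (by decide +kernel)
  · simp only [el_mul]
    exact el_eq (by decide +kernel)
  · simp only [el_mul]
    exact el_one' (by decide +kernel)
  · simp only [el_mul]
    exact el_eq (by decide +kernel)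
  · simp only [el_mul]
    exact el_one' (by decide +kernel)
  · simp only [pow_succ, pow_zero, one_mul, el_mul]
    exact el_eq (by decide +kernel)
  · simp only [el_mul]
    exact el_one' (by decide +kernel)
  · simp only [pow_succ, pow_zero, one_mul, el_mul]
    exact el_eq (by decide +kernel)
  · simp only [el_mul]
    refine orderOf_eq_prime (hp := ⟨by norm_num⟩) ?_ (el_ne (by decide +kernel))
    simp only [pow_succ, pow_zero, one_mul, el_mul]
    exact el_one' (by decide +kernel)
  · simp only [el_mul]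
    exact el_one' (by decide +kernel)
  · exact el_ne (by decide +kernel)
  · simp only [el_mul, el_inv]
    exact el_eq (by decide +kernel)
  · simp only [el_mul]
    exact el_one' (by decide +kernel)
  · exact el_ne (by decide +kernel)
  · simp only [el_mul]
    exact el_eq (by decide +kernel)
  · simp only [el_mul]
    exact el_one' (by decide +kernel)
  · exact el_ne (by decide +kernel)
  · simp only [el_mul]
    exact el_eq (by decide +kernel)
  · simp only [el_mul, el_inv]
    exact el_eq (by decide +kernel)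
  · simp only [el_mul, el_inv]
    exact el_eq (by decide +kernel)
  · simp only [el_mul]
    exact el_eq (by decide +kernel)
  · have : orderOf (el we) = 2 ^ (2 + 1) := by
      refine orderOf_eq_prime_pow ?_ ?_
      · simp only [show (2 : ℕ) ^ 2 = 4 from rfl, pow_succ, pow_zero, one_mul, el_mul]
        exact el_ne (by decide +kernel)
      · simp only [show (2 : ℕ) ^ (2 + 1) = 8 from rfl, pow_succ, pow_zero, one_mul, el_mul]
        exact el_one' (by decide +kernel)
    exact this

end JTwoDat

/-- **the data for `J₂`** -/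
theorem dj2_of_iso {X : Type*} [Group X] (h : Spor.IsoJ2 X) : DJ2 X := by
  obtain ⟨e⟩ := h
  obtain ⟨f⟩ := J2_iso Cfsg.Agent.S1619.result.2.2.2
  exact JTwoDat.dat.congr (e.trans f).symm

end Cfsg.Agent.H998.SpAlt
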