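import Cfsg.Agent.H998.SpAlt.Shult

/-!
# The Shult step, conclusion (helper998, for S3666)
-/

set_option autoImplicit false
set_option linter.unusedSectionVars false

namespace Cfsg.Agent.H998.SpAlt

open Subgroup
open scoped commutatorElement

universe u v

/-- a normal `s`-subgroup acts trivially on an irreducible module -/
theorem normal_trivial {Q : Type u} [Group Q] {A : Type v} [AddCommGroup A] [Finite A] [Nontrivial A]
    {ρ : Q →* AddMonoid.End A} {s : ℕ} (hs : s.Prime) (hA : ∀ a : A, s • a = 0)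
    (hirr : ∀ B : AddSubgroup A, (∀ h, ∀ b ∈ B, ρ h b ∈ B) → B = ⊥ ∨ B = ⊤)
    {N : Subgroup Q} (hN : N.Normal) (hNs : IsPGroup s N) : ∀ n ∈ N, ρ n = 1 := by
  have := Fact.mk hs
  let B : AddSubgroup A :=
    { carrier := {a | ∀ n ∈ N, ρ n a = a}
      add_mem' := fun {a b} ha hb n hn => by rw [map_add, ha n hn, hb n hn]
      zero_mem' := fun n _ => map_zero _
      neg_mem' := fun {a} ha n hn => by rw [map_neg, ha n hn] }
  have hB : ∀ h, ∀ b ∈ B, ρ h b ∈ B := by
    intro h b hb n hn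
    have h1 : n * h = h * (h⁻¹ * n * h) := by group
    have h2 : h⁻¹ * n * h ∈ N := by
      have := hN.conj_mem n hn h⁻¹
      rwa [inv_inv] at this
    show (ρ n * ρ h) b = ρ h b
    rw [← map_mul, h1, map_mul]
    show ρ h (ρ (h⁻¹ * n * h) b) = ρ h b
    rw [hb _ h2]
  rcases hirr B hB with h | h
  · exfalso
    let _ : MulAction N A :=
      { smul := fun n a => ρ (n : Q) a
        one_smul := fun a => by
          show ρ ((1 : N) : Q) a = a
          rw [Subgroup.coe_one, map_one]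
          rfl
        mul_smul := fun m n a => by
          show ρ ((m * n : N) : Q) a = ρ (m : Q) (ρ (n : Q) a)
          rw [Subgroup.coe_mul, map_mul]
          rfl }
    have h1 := hNs.card_modEq_card_fixedPoints A
    have h2 : s ∣ Nat.card A := by
      obtain ⟨a, ha⟩ := exists_ne (0 : A)
      have h3 : addOrderOf a = s := by
        rcases (Nat.dvd_prime hs).1 (addOrderOf_dvd_of_nsmul_eq_zero (hA a)) with h | h
        · exact absurd (AddMonoid.addOrderOf_eq_one_iff.1 h) ha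
        · exact h
      rw [← h3]
      exact addOrderOf_dvd_natCard a
    have h3 : MulAction.fixedPoints N A = {0} := by
      ext a
      rw [Set.mem_singleton_iff]
      constructor
      · intro ha
        have h4 : a ∈ B := fun n hn => ha ⟨n, hn⟩
        rw [h] at h4
        exact h4
      · rintro rfl n
        exact map_zero _
    rw [h3] at h1
    have h4 : Nat.card ({0} : Set A) = 1 := by simp
    rw [h4] at h1
    have h5 : s ∣ 1 := (Nat.modEq_zero_iff_dvd.1 (h1.symm.trans (Nat.modEq_zero_iff_dvd.2 h2)))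
    exact hs.one_lt.ne' (Nat.dvd_one.1 h5)
  · intro n hn
    refine AddMonoidHom.ext fun a => ?_
    have h1 : a ∈ B := by rw [h]; exact AddSubgroup.mem_top a
    exact h1 n hn

/-- unipotent elements have `s`-power order -/
theorem pow_of_unip {A : Type v} [AddCommGroup A] {s : ℕ} (hs : s.Prime) (hA : ∀ a : A, s • a = 0)
    {f : AddMonoid.End A} {n : ℕ} (h : (f - 1) ^ n = 0) : f ^ s ^ n = 1 := by
  have := Fact.mk hs
  rcases subsingleton_or_nontrivial A with hsub | hnt
  · exact AddMonoidHom.ext fun a => Subsingleton.elim _ _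
  have hz : ∀ n : ℕ, (n : AddMonoid.End A) = 0 ↔ s ∣ n := by
    intro n
    have h1 : ∀ a : A, (n : AddMonoid.End A) a = n • a := fun a => AddMonoid.End.natCast_apply n a
    constructor
    · intro h
      obtain ⟨a, ha⟩ := exists_ne (0 : A)
      have h2 : n • a = 0 := by
        rw [← h1 a, h]
        rfl
      have h3 : addOrderOf a = s := by
        rcases (Nat.dvd_prime hs).1 (addOrderOf_dvd_of_nsmul_eq_zero (hA a)) with h | h
        · exact absurd (AddMonoid.addOrderOf_eq_one_iff.1 h) ha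
        · exact h
      rw [← h3]
      exact addOrderOf_dvd_of_nsmul_eq_zero h2
    · rintro ⟨k, rfl⟩
      refine AddMonoidHom.ext fun a => ?_
      refine (h1 a).trans ?_
      rw [mul_comm, mul_nsmul, hA]
      rfl
  have : CharP (AddMonoid.End A) s := ⟨hz⟩
  have h1 : (f - 1) ^ s ^ n = f ^ s ^ n - 1 := by
    rw [sub_pow_char_pow_of_commute, one_pow]
    exact Commute.one_right f
  have h2 : (f - 1) ^ s ^ n = 0 := by
    have h3 : n ≤ s ^ n := (Nat.lt_pow_self hs.one_lt).le
    rw [← Nat.sub_add_cancel h3, pow_add, h, mul_zero]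
  rw [h1] at h2
  exact sub_eq_zero.1 h2

/-- **the Shult step** -/
theorem shult_step (hSh : ShultStmt.{u}) {G : Type u} [Group G] [Finite G] {A : Type u} [AddCommGroup A] [Finite A]
    [Nontrivial A] {ρ : G →* AddMonoid.End A} {s : ℕ} (hs : s.Prime) (hA : ∀ a : A, s • a = 0)
    {K : Subgroup G} (hKn : K.Normal) {x : G} {r : ℕ} (hr : r.Prime) (hx : orderOf x = r) (hrK : ¬ r ∣ Nat.card K)
    (hrs : r ≠ s) (hrm : ∀ m : ℕ, r ≠ 2 ^ m + 1) (hn : nm ρ x r = 0)
    (hirr : ∀ B : AddSubgroup A, (∀ h, ∀ b ∈ B, ρ h b ∈ B) → B = ⊥ ∨ B = ⊤) :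
    ∀ k ∈ K, ρ ⁅k, x⁆ = 1 := by
  have := Fact.mk hs
  -- the unipotence
  obtain ⟨n, hun⟩ : ∃ n : ℕ, ∀ d ∈ ⁅K, zpowers x⁆, (ρ d - 1) ^ n = 0 := by
    let H : Subgroup G := K ⊔ zpowers x
    have hKH : K ≤ H := le_sup_left
    have hxH : zpowers x ≤ H := le_sup_right
    have hxm : x ∈ H := hxH (mem_zpowers x)
    have hKn' : (K.subgroupOf H).Normal := hKn.subgroupOf H
    have hzx : (zpowers x).subgroupOf H = zpowers (⟨x, hxm⟩ : H) := by
      apply Subgroup.map_injective H.subtype_injective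
      rw [Subgroup.map_subgroupOf_eq_of_le hxH, MonoidHom.map_zpowers]
      rfl
    have hsup : K.subgroupOf H ⊔ zpowers (⟨x, hxm⟩ : H) = ⊤ := by
      rw [← hzx, ← Subgroup.subgroupOf_sup hKH hxH, Subgroup.subgroupOf_self]
    have hnn : nm (ρ.comp H.subtype) (⟨x, hxm⟩ : H) r = 0 := hn
    obtain ⟨n, h1⟩ := shult_unip hSh hs (K := K.subgroupOf H) (x := (⟨x, hxm⟩ : H)) hr
      (by rw [← hx, ← Subgroup.orderOf_coe])
      (by rw [Nat.card_congr (Subgroup.subgroupOfEquivOfLe hKH).toEquiv]; exact hrK)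
      hrs hrm hsup (Nat.card A) A (ρ.comp H.subtype) rfl hA hnn
    refine ⟨n, fun d hd => ?_⟩
    have h2 : (⁅K.subgroupOf H, zpowers (⟨x, hxm⟩ : H)⁆).map H.subtype = ⁅K, zpowers x⁆ := by
      rw [Subgroup.map_commutator, ← hzx, Subgroup.map_subgroupOf_eq_of_le hKH,
        Subgroup.map_subgroupOf_eq_of_le hxH]
    rw [← h2] at hd
    obtain ⟨d', hd', rfl⟩ := hd
    exact h1 d' hd'
  obtain ⟨Q, _, q, ρ', hqs, hρ', hρq⟩ := ker_fac ρ
  have hirr' : ∀ B : AddSubgroup A, (∀ h, ∀ b ∈ B, ρ' h b ∈ B) → B = ⊥ ∨ B = ⊤ := fun B hB =>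
    hirr B fun h b hb => by rw [← hρq]; exact hB (q h) b hb
  let D : Subgroup G := ⁅K, zpowers x⁆
  have hDK : D ≤ K := Subgroup.commutator_le_left K (zpowers x)
  have hDn : K ≤ normalizer (D : Set G) := normalizer_commutator_ge_left K (zpowers x)
  have hKQ : (K.map q).Normal := hKn.map q hqs
  have hDs : IsPGroup s (D.map q) := by
    rintro ⟨_, d, hd, rfl⟩
    refine ⟨n, Subtype.ext ?_⟩
    show (q d) ^ s ^ n = 1
    apply hρ'
    rw [map_pow, hρq, map_one]
    exact pow_of_unip hs hA (hun d hd)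
  have hDQn : ((D.map q).subgroupOf (K.map q)).Normal := by
    refine ⟨?_⟩
    rintro ⟨_, d1, hd1, rfl⟩ hd ⟨_, k, hk, rfl⟩
    obtain ⟨d, hd2, hd3⟩ := hd
    refine ⟨k * d * k⁻¹, (mem_normalizer_iff.1 (hDn hk) d).1 hd2, ?_⟩
    rw [map_mul, map_mul, map_inv, hd3]
    rfl
  have hle : D.map q ≤ (pCore s (K.map q)).map (K.map q).subtype := by
    have h1 : (D.map q).subgroupOf (K.map q) ≤ pCore s (K.map q) := by
      exact Lib.Cores.le_pCore hDQn hDs.comap_subtype
    have h2 := Subgroup.map_mono (f := (K.map q).subtype) h1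
    rwa [Subgroup.map_subgroupOf_eq_of_le (Subgroup.map_mono hDK)] at h2
  rw [Lib.Cores.map_subtype_pCore s hKQ] at hle
  intro k hk
  rw [← hρq]
  refine normal_trivial hs hA hirr' (Lib.Cores.pCore_normal s) (Lib.Cores.pCore_isPGroup s) _ ?_
  exact (hle ⟨⁅k, x⁆, Subgroup.commutator_mem_commutator hk (mem_zpowers x), rfl⟩).2

end Cfsg.Agent.H998.SpAlt
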